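import Cfsg.Agent.H31.K9.Num

/-!
# Numerical part: the conclusion
-/

set_option autoImplicit false

namespace Cfsg.Agent.H31.K9

/-- the numerical data -/
structure Dat (ι : Type*) [Fintype ι] (g : ℕ) where
  d : ι → ℤ
  r : ι → ℤ
  c : ι → ℤ
  γ : ι → ℤ
  i0 : ι
  d0 : d i0 = 1
  r0 : r i0 = 0
  c0 : c i0 = 0
  γ0 : γ i0 = 1
  dpos : ∀ i, 0 < d i
  rr : ∑ i, r i ^ 2 = 3
  cc : ∑ i, c i ^ 2 = 3
  rc : ∑ i, r i * c i = 1
  γγ : ∑ i, γ i ^ 2 = 9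
  γr : ∑ i, γ i * r i = -3
  γc : ∑ i, γ i * c i = -3
  dr : ∑ i, d i * r i = 0
  dc : ∑ i, d i * c i = 0
  dd : ∑ i, d i ^ 2 = (g : ℤ)
  acc : ∑ i, ((γ i + 3 * r i : ℤ) : ℚ) ^ 2 / (d i : ℚ) * (c i : ℚ) = 0
  brr : ∑ i, ((γ i + 3 * c i : ℤ) : ℚ) ^ 2 / (d i : ℚ) * (r i : ℚ) = 0
  abc : (g : ℚ) * (3 * (∑ i, ((γ i + 3 * r i : ℤ) : ℚ) * (γ i : ℚ) / (d i : ℚ) * (c i : ℚ) -
    ∑ i, ((γ i + 3 * r i : ℤ) : ℚ) * (γ i : ℚ) / (d i : ℚ) * (r i : ℚ))) = 324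

theorem fin_three {dZ dA dB rZ rA rB cZ cA cB : ℤ} (h1 : rZ = 1 ∨ rZ = -1) (h2 : rA = 1 ∨ rA = -1)
    (h3 : rB = 1 ∨ rB = -1) (h4 : cZ = 1 ∨ cZ = -1) (h5 : cA = 1 ∨ cA = -1) (h6 : cB = 1 ∨ cB = -1) (hZ : 0 < dZ)
    (hA : 0 < dA) (hB : 0 < dB) (e1 : rZ * cZ + rA * cA + rB * cB = 1) (e2 : dZ * rZ + dA * rA + dB * rB = 0)
    (e3 : dZ * cZ + dA * cA + dB * cB = 0) : False := by
  rcases h1 with h1 | h1 <;> rcases h2 with h2 | h2 <;> rcases h3 with h3 | h3 <;> rcases h4 with h4 | h4 <;>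
    rcases h5 with h5 | h5 <;> rcases h6 with h6 | h6 <;> subst h1 h2 h3 h4 h5 h6 <;> omega

theorem t1_key {k c : ℤ} (hk : (k : ℚ) ≠ 0) (hc : c = 1 ∨ c = -1) :
    ((-c + 3 * c : ℤ) : ℚ) * ((-c : ℤ) : ℚ) / ((-2 * k * c : ℤ) : ℚ) * (c : ℚ) = 1 / k := by
  rcases hc with h | h <;> subst h <;> push_cast <;> field_simp <;> norm_num

theorem t2_key {k c : ℤ} (hk : (k : ℚ) ≠ 0) (hc : c = 1 ∨ c = -1) :
    ((-c + 3 * 0 : ℤ) : ℚ) * ((-c : ℤ) : ℚ) / ((k * c : ℤ) : ℚ) * (c : ℚ) = 1 / k := by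
  rcases hc with h | h <;> subst h <;> push_cast <;> field_simp <;> norm_num

theorem t3_key {k c : ℤ} (hk : (k : ℚ) ≠ 0) (hc : c = 1 ∨ c = -1) :
    ((-c + 3 * c : ℤ) : ℚ) * ((-c : ℤ) : ℚ) / ((k * c : ℤ) : ℚ) * (c : ℚ) = -2 / k := by
  rcases hc with h | h <;> subst h <;> push_cast <;> field_simp <;> norm_num

set_option maxHeartbeats 1000000 in
theorem main_num {ι : Type*} [Fintype ι] {g : ℕ} (D : Dat ι g) (hg : 36 ∣ g) : g = 36 := by
  classical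
  obtain ⟨Z, hZ⟩ : ∃ Z, D.r Z * D.c Z ≠ 0 := by
    by_contra hcon
    push Not at hcon
    have := D.rc
    rw [Finset.sum_eq_zero (fun i _ => hcon i)] at this
    exact absurd this (by norm_num)
  have hrZ : D.r Z ≠ 0 := left_ne_zero_of_mul hZ
  have hcZ : D.c Z ≠ 0 := right_ne_zero_of_mul hZ
  obtain ⟨A1, A2, hZA1, hZA2, hA12, hsA, hA1, hA2, hrZ'⟩ := exists_supp D.r D.rr hrZ
  obtain ⟨B1, B2, hZB1, hZB2, hB12, hsB, hB1, hB2, hcZ'⟩ := exists_supp D.c D.cc hcZ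
  have SR : ∀ F : ι → ℤ, ∑ i, F i * D.r i = F Z * D.r Z + F A1 * D.r A1 + F A2 * D.r A2 := by
    intro F
    have := sum_supp (K := ℤ) D.r hZA1 hZA2 hA12 hsA F
    simpa using this
  have SC : ∀ F : ι → ℤ, ∑ i, F i * D.c i = F Z * D.c Z + F B1 * D.c B1 + F B2 * D.c B2 := by
    intro F
    have := sum_supp (K := ℤ) D.c hZB1 hZB2 hB12 hsB F
    simpa using this
  have SRQ : ∀ F : ι → ℚ, ∑ i, F i * (D.r i : ℚ) = F Z * D.r Z + F A1 * D.r A1 + F A2 * D.r A2 :=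
    fun F => sum_supp (K := ℚ) D.r hZA1 hZA2 hA12 hsA F
  have SCQ : ∀ F : ι → ℚ, ∑ i, F i * (D.c i : ℚ) = F Z * D.c Z + F B1 * D.c B1 + F B2 * D.c B2 :=
    fun F => sum_supp (K := ℚ) D.c hZB1 hZB2 hB12 hsB F
  have hrc := D.rc
  have e1 : ∑ i, D.r i * D.c i = ∑ i, D.c i * D.r i := Finset.sum_congr rfl fun i _ => mul_comm _ _
  have hrc' := hrc
  rw [e1, SR] at hrc
  rw [SC] at hrc'
  have hdr := D.dr
  rw [SR] at hdr
  have hdc := D.dc
  rw [SC] at hdc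
  have pZ := D.dpos Z
  have pA1 := D.dpos A1
  have pA2 := D.dpos A2
  have pB1 := D.dpos B1
  have pB2 := D.dpos B2
  -- the supports meet in one point
  have hc : ∀ i, D.c i = 0 ∨ D.c i = 1 ∨ D.c i = -1 := by
    intro i
    by_cases h : D.c i = 0
    · exact Or.inl h
    · right
      exact (supp_three D.c D.cc).2 i h
  have hcA : D.c A1 = 0 ∧ D.c A2 = 0 := by
    by_contra hcon
    have h1 : D.c A1 ≠ 0 ∧ D.c A2 ≠ 0 := by
      have h2 := hc A1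
      have h3 := hc A2
      rcases hrZ' with h | h <;> rcases hcZ' with h' | h' <;> rcases hA1 with h'' | h'' <;>
        rcases hA2 with h''' | h''' <;> rw [h, h', h'', h'''] at hrc <;> omega
    have h2 : (A1 = B1 ∧ A2 = B2) ∨ (A1 = B2 ∧ A2 = B1) := by
      rcases hsB A1 h1.1 with h | h | h
      · exact absurd h.symm hZA1
      · rcases hsB A2 h1.2 with h' | h' | h'
        · exact absurd h'.symm hZA2
        · exact absurd (h.trans h'.symm) hA12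
        · exact Or.inl ⟨h, h'⟩
      · rcases hsB A2 h1.2 with h' | h' | h'
        · exact absurd h'.symm hZA2
        · exact Or.inr ⟨h, h'⟩
        · exact absurd (h.trans h'.symm) hA12
    rcases h2 with ⟨h2, h3⟩ | ⟨h2, h3⟩
    · subst h2 h3
      exact fin_three hrZ' hA1 hA2 hcZ' hB1 hB2 pZ pA1 pA2 (by linarith) hdr hdc
    · subst h2 h3
      exact fin_three hrZ' hA1 hA2 hcZ' hB2 hB1 pZ pA1 pA2 (by linarith) hdr (by linarith)
  have hrB : D.r B1 = 0 ∧ D.r B2 = 0 := by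
    constructor
    · by_contra h
      rcases hsA B1 h with h' | h' | h'
      · exact hZB1 h'.symm
      · rw [← h'] at hcA; rw [hcA.1] at hB1; omega
      · rw [← h'] at hcA; rw [hcA.2] at hB1; omega
    · by_contra h
      rcases hsA B2 h with h' | h' | h'
      · exact hZB2 h'.symm
      · rw [← h'] at hcA; rw [hcA.1] at hB2; omega
      · rw [← h'] at hcA; rw [hcA.2] at hB2; omega
  rw [hcA.1, hcA.2] at hrc
  have hεZ : D.r Z = D.c Z := by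
    rcases hrZ' with h | h <;> rcases hcZ' with h' | h' <;> rw [h, h'] at hrc ⊢ <;> omega
  rw [hεZ] at hdr
  -- distinctness
  have hA1B1 : A1 ≠ B1 := by intro h; rw [h] at hcA; rw [hcA.1] at hB1; omega
  have hA1B2 : A1 ≠ B2 := by intro h; rw [h] at hcA; rw [hcA.1] at hB2; omega
  have hA2B1 : A2 ≠ B1 := by intro h; rw [h] at hcA; rw [hcA.2] at hB1; omega
  have hA2B2 : A2 ≠ B2 := by intro h; rw [h] at hcA; rw [hcA.2] at hB2; omega
  have h0Z : D.i0 ≠ Z := by intro h; rw [← h] at hrZ; exact hrZ D.r0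
  have h0A1 : D.i0 ≠ A1 := by intro h; rw [← h, D.r0] at hA1; omega
  have h0A2 : D.i0 ≠ A2 := by intro h; rw [← h, D.r0] at hA2; omega
  have h0B1 : D.i0 ≠ B1 := by intro h; rw [← h, D.c0] at hB1; omega
  have h0B2 : D.i0 ≠ B2 := by intro h; rw [← h, D.c0] at hB2; omega
  have sub6 : ∀ F : ι → ℤ, (∀ i, 0 ≤ F i) → F D.i0 + F Z + F A1 + F A2 + F B1 + F B2 ≤ ∑ i, F i := by
    intro F hF
    have h1 : ∑ i ∈ ({D.i0, Z, A1, A2, B1, B2} : Finset ι), F i ≤ ∑ i, F i :=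
      Finset.sum_le_sum_of_subset_of_nonneg (Finset.subset_univ _) (fun i _ _ => hF i)
    rw [Finset.sum_insert (by simp [h0Z, h0A1, h0A2, h0B1, h0B2]), Finset.sum_insert (by simp [hZA1, hZA2, hZB1, hZB2]),
      Finset.sum_insert (by simp [hA12, hA1B1, hA1B2]), Finset.sum_insert (by simp [hA2B1, hA2B2]),
      Finset.sum_pair hB12] at h1
    linarith
  have hγr := D.γr
  rw [SR, hεZ] at hγr
  have hγc := D.γc
  rw [SC] at hγc
  have hacc := D.acc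
  rw [SCQ] at hacc
  have hbrr := D.brr
  rw [SRQ] at hbrr
  rw [hrB.1, hrB.2, hεZ] at hacc
  rw [hcA.1, hcA.2, hεZ] at hbrr
  simp only [mul_zero, add_zero] at hacc hbrr
  have kB := both_zero hcZ' hB1 hB2 pZ pB1 pB2 hdc hγc hacc
  have kA := both_zero hcZ' hA1 hA2 pZ pA1 pA2 hdr hγr hbrr
  have hγ2 := sub6 (fun i => D.γ i ^ 2) (fun i => sq_nonneg _)
  simp only [D.γγ, D.γ0] at hγ2
  have hd2 := sub6 (fun i => D.d i ^ 2) (fun i => sq_nonneg _)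
  simp only [D.dd, D.d0] at hd2
  -- notation
  have sq1 : ∀ x : ℤ, (x = 1 ∨ x = -1) → x ^ 2 = 1 := by
    intro x hx; rcases hx with h | h <;> rw [h] <;> norm_num
  have qZ := sq1 _ hcZ'
  have qA1 := sq1 _ hA1
  have qA2 := sq1 _ hA2
  have qB1 := sq1 _ hB1
  have qB2 := sq1 _ hB2
  obtain ⟨gZ, hgZ⟩ : ∃ x, x = -(D.γ Z * D.c Z) := ⟨_, rfl⟩
  obtain ⟨a1, ha1⟩ : ∃ x, x = -(D.γ A1 * D.r A1) := ⟨_, rfl⟩
  obtain ⟨a2, ha2⟩ : ∃ x, x = -(D.γ A2 * D.r A2) := ⟨_, rfl⟩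
  obtain ⟨b1, hb1⟩ : ∃ x, x = -(D.γ B1 * D.c B1) := ⟨_, rfl⟩
  obtain ⟨b2, hb2⟩ : ∃ x, x = -(D.γ B2 * D.c B2) := ⟨_, rfl⟩
  have sZ : D.γ Z ^ 2 = gZ ^ 2 := by rw [hgZ]; linear_combination (-(D.γ Z ^ 2)) * qZ
  have sA1 : D.γ A1 ^ 2 = a1 ^ 2 := by rw [ha1]; linear_combination (-(D.γ A1 ^ 2)) * qA1
  have sA2 : D.γ A2 ^ 2 = a2 ^ 2 := by rw [ha2]; linear_combination (-(D.γ A2 ^ 2)) * qA2
  have sB1 : D.γ B1 ^ 2 = b1 ^ 2 := by rw [hb1]; linear_combination (-(D.γ B1 ^ 2)) * qB1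
  have sB2 : D.γ B2 ^ 2 = b2 ^ 2 := by rw [hb2]; linear_combination (-(D.γ B2 ^ 2)) * qB2
  rw [← hb1, ← hb2] at kB
  rw [← ha1, ← ha2] at kA
  have ha : gZ + a1 + a2 = 3 := by rw [hgZ, ha1, ha2]; linarith
  have hb : gZ + b1 + b2 = 3 := by rw [hgZ, hb1, hb2]; linarith
  rw [sZ, sA1, sA2, sB1, sB2] at hγ2
  have nA1 : D.d A1 * D.r A1 ≠ 0 := by
    apply mul_ne_zero pA1.ne'; intro h; rw [h] at hA1; omega
  have nA2 : D.d A2 * D.r A2 ≠ 0 := by
    apply mul_ne_zero pA2.ne'; intro h; rw [h] at hA2; omega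
  have nB1 : D.d B1 * D.c B1 ≠ 0 := by
    apply mul_ne_zero pB1.ne'; intro h; rw [h] at hB1; omega
  have nB2 : D.d B2 * D.c B2 ≠ 0 := by
    apply mul_ne_zero pB2.ne'; intro h; rw [h] at hB2; omega
  have big : gZ ^ 2 ≤ 8 := by
    have := sq_nonneg a1
    have := sq_nonneg a2
    have := sq_nonneg b1
    have := sq_nonneg b2
    linarith
  have ha0 : a1 ≠ 0 ∧ a2 ≠ 0 := by
    constructor
    · intro h
      rw [h, zero_mul] at kA
      have h2 : a2 = 0 := (mul_eq_zero.1 kA.symm).resolve_right nA1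
      rw [h, h2] at ha
      have : gZ = 3 := by linarith
      rw [this] at big; norm_num at big
    · intro h
      rw [h, zero_mul] at kA
      have h2 : a1 = 0 := (mul_eq_zero.1 kA).resolve_right nA2
      rw [h, h2] at ha
      have : gZ = 3 := by linarith
      rw [this] at big; norm_num at big
  have hb0 : b1 ≠ 0 ∧ b2 ≠ 0 := by
    constructor
    · intro h
      rw [h, zero_mul] at kB
      have h2 : b2 = 0 := (mul_eq_zero.1 kB.symm).resolve_right nB1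
      rw [h, h2] at hb
      have : gZ = 3 := by linarith
      rw [this] at big; norm_num at big
    · intro h
      rw [h, zero_mul] at kB
      have h2 : b1 = 0 := (mul_eq_zero.1 kB).resolve_right nB2
      rw [h, h2] at hb
      have : gZ = 3 := by linarith
      rw [this] at big; norm_num at big
  obtain ⟨rfl, rfl, rfl, rfl, rfl⟩ := g_key ha hb ha0.1 ha0.2 hb0.1 hb0.2 (by linarith)
  rw [one_mul, one_mul] at kA kB
  -- the values
  have vZ : D.γ Z = -D.c Z := by linear_combination D.c Z * hgZ - D.γ Z * qZ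
  have vA1 : D.γ A1 = -D.r A1 := by linear_combination D.r A1 * ha1 - D.γ A1 * qA1
  have vA2 : D.γ A2 = -D.r A2 := by linear_combination D.r A2 * ha2 - D.γ A2 * qA2
  have vB1 : D.γ B1 = -D.c B1 := by linear_combination D.c B1 * hb1 - D.γ B1 * qB1
  have vB2 : D.γ B2 = -D.c B2 := by linear_combination D.c B2 * hb2 - D.γ B2 * qB2
  obtain ⟨k, hk⟩ : ∃ k, k = D.d B1 * D.c B1 := ⟨_, rfl⟩
  have kB2 : D.d B2 * D.c B2 = k := by rw [hk]; exact kB
  have kZ : D.d Z * D.c Z = -2 * k := by linarith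
  have kA1 : D.d A1 * D.r A1 = k := by linarith
  have kA2 : D.d A2 * D.r A2 = k := by linarith
  have dZ : D.d Z = -2 * k * D.c Z := by linear_combination D.c Z * kZ - D.d Z * qZ
  have dA1 : D.d A1 = k * D.r A1 := by linear_combination D.r A1 * kA1 - D.d A1 * qA1
  have dA2 : D.d A2 = k * D.r A2 := by linear_combination D.r A2 * kA2 - D.d A2 * qA2
  have dB1 : D.d B1 = k * D.c B1 := by linear_combination (-D.c B1) * hk - D.d B1 * qB1
  have dB2 : D.d B2 = k * D.c B2 := by linear_combination D.c B2 * kB2 - D.d B2 * qB2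
  have hk0 : k ≠ 0 := by rw [hk]; exact nB1
  have hkq : (k : ℚ) ≠ 0 := by exact_mod_cast hk0
  have habc := D.abc
  rw [SCQ, SRQ, hrB.1, hrB.2, hεZ, vZ, vA1, vA2, vB1, vB2, dZ, dA1, dA2, dB1, dB2] at habc
  have hfin : (g : ℚ) = 18 * k := by
    rw [t1_key hkq hcZ', t2_key hkq hB1, t2_key hkq hB2, t3_key hkq hA1, t3_key hkq hA2] at habc
    field_simp at habc
    linarith
  have hgk : (g : ℤ) = 18 * k := by exact_mod_cast hfin
  have hle : 1 + 8 * k ^ 2 ≤ (g : ℤ) := by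
    have t1 : D.d Z ^ 2 = 4 * k ^ 2 := by rw [dZ]; linear_combination (4 * k ^ 2) * qZ
    have t2 : D.d A1 ^ 2 = k ^ 2 := by rw [dA1]; linear_combination (k ^ 2) * qA1
    have t3 : D.d A2 ^ 2 = k ^ 2 := by rw [dA2]; linear_combination (k ^ 2) * qA2
    have t4 : D.d B1 ^ 2 = k ^ 2 := by rw [dB1]; linear_combination (k ^ 2) * qB1
    have t5 : D.d B2 ^ 2 = k ^ 2 := by rw [dB2]; linear_combination (k ^ 2) * qB2
    linarith
  obtain ⟨m, hm⟩ := hg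
  have hm' : (g : ℤ) = 36 * m := by rw [hm]; push_cast; ring
  have hk2 : k = 2 * m := by linarith
  rw [hgk] at hle
  have hk3 : k ≤ 2 := by nlinarith
  have hm1 : (0 : ℤ) ≤ m := by positivity
  have hm2 : (m : ℤ) = 0 ∨ (m : ℤ) = 1 := by omega
  rcases hm2 with h | h
  · exfalso; apply hk0; rw [hk2, h]; norm_num
  · have : (g : ℤ) = 36 := by rw [hm', h]; norm_num
    exact_mod_cast this

end Cfsg.Agent.H31.K9
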