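import Cfsg.Agent.H31.K9.Coord2
import Cfsg.Agent.H31.K9.Num2
import Cfsg.Agent.Tri3.Nine.Char
import Cfsg.Agent.Tri3.Const

/-!
# The characters of a group with a TI Sylow 3-subgroup `3²` with automizer `2²`
-/

set_option autoImplicit false
set_option linter.unusedSectionVars false
set_option maxHeartbeats 1000000

open scoped ComplexConjugate
open Cfsg Cfsg.Agent.CharBase

namespace Cfsg.Agent.H31.K9

open Cfsg.Agent.Tri3 Multiplicative

section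

variable {G : Type*} [Group G] [Finite G] {H : Subgroup G} (D : TI H sgK)

theorem char_f (χ : IrrCharacter G) (i : Bool × Bool) (v : A2) :
    (χ : G → ℂ) (D.f (sgK i v)) = (χ : G → ℂ) (D.f v) := by
  symm
  apply classFun_eq_of_isConj (irr_isClassFunction χ)
  rw [isConj_iff]
  exact ⟨D.e i, D.f_conj i v⟩

theorem vals (χ : IrrCharacter G) :
    (χ : G → ℂ) (D.f (2, 0)) = (χ : G → ℂ) (D.f (1, 0)) ∧
    (χ : G → ℂ) (D.f (0, 2)) = (χ : G → ℂ) (D.f (0, 1)) ∧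
    (χ : G → ℂ) (D.f (1, 2)) = (χ : G → ℂ) (D.f (1, 1)) ∧
    (χ : G → ℂ) (D.f (2, 1)) = (χ : G → ℂ) (D.f (1, 1)) ∧
    (χ : G → ℂ) (D.f (2, 2)) = (χ : G → ℂ) (D.f (1, 1)) := by
  refine ⟨?_, ?_, ?_, ?_, ?_⟩
  · rw [← char_f D χ (true, true) (1, 0)]; congr 1
  · rw [← char_f D χ (true, true) (0, 1)]; congr 1
  · rw [← char_f D χ (false, true) (1, 1)]; congr 1
  · rw [← char_f D χ (true, false) (1, 1)]; congr 1
  · rw [← char_f D χ (true, true) (1, 1)]; congr 1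

/-- the multiplicities and the character values -/
theorem exists_mults (χ : IrrCharacter G) : ∃ m0 m1 m2 m3 : ℕ,
    (χ : G → ℂ) 1 = m0 + 2 * m1 + 2 * m2 + 4 * m3 ∧
    (χ : G → ℂ) (D.f (1, 0)) = m0 - m1 + 2 * m2 - 2 * m3 ∧
    (χ : G → ℂ) (D.f (0, 1)) = m0 + 2 * m1 - m2 - 2 * m3 ∧
    (χ : G → ℂ) (D.f (1, 1)) = m0 - m1 - m2 + m3 := by
  have hr := om_rel
  obtain ⟨a1, a2, a3, a4, a5⟩ := vals D χ
  have hz : D.f (0, 0) = 1 := D.f_zero
  obtain ⟨m0, hm0⟩ := exists_mult D.φ (dot2 (0, 0)) (irr_isCharacter χ)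
  obtain ⟨m1, hm1⟩ := exists_mult D.φ (dot2 (1, 0)) (irr_isCharacter χ)
  obtain ⟨m2, hm2⟩ := exists_mult D.φ (dot2 (0, 1)) (irr_isCharacter χ)
  obtain ⟨m3, hm3⟩ := exists_mult D.φ (dot2 (1, 1)) (irr_isCharacter χ)
  change ∑ v : A2, (χ : G → ℂ) (D.f v) * e3 (-(dot2 (0, 0) v)) = _ at hm0
  change ∑ v : A2, (χ : G → ℂ) (D.f v) * e3 (-(dot2 (1, 0) v)) = _ at hm1
  change ∑ v : A2, (χ : G → ℂ) (D.f v) * e3 (-(dot2 (0, 1) v)) = _ at hm2
  change ∑ v : A2, (χ : G → ℂ) (D.f v) * e3 (-(dot2 (1, 1) v)) = _ at hm3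
  rw [card_A2] at hm0 hm1 hm2 hm3
  have e00 : ∀ v, -(dot2 (0, 0) v) = 0 := by decide
  have f00 : -(dot2 (1, 0) (0, 0)) = 0 := by decide
  have f01 : -(dot2 (1, 0) (0, 1)) = 0 := by decide
  have f02 : -(dot2 (1, 0) (0, 2)) = 0 := by decide
  have f10 : -(dot2 (1, 0) (1, 0)) = 2 := by decide
  have f11 : -(dot2 (1, 0) (1, 1)) = 2 := by decide
  have f12 : -(dot2 (1, 0) (1, 2)) = 2 := by decide
  have f20 : -(dot2 (1, 0) (2, 0)) = 1 := by decide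
  have f21 : -(dot2 (1, 0) (2, 1)) = 1 := by decide
  have f22 : -(dot2 (1, 0) (2, 2)) = 1 := by decide
  have h00 : -(dot2 (0, 1) (0, 0)) = 0 := by decide
  have h01 : -(dot2 (0, 1) (0, 1)) = 2 := by decide
  have h02 : -(dot2 (0, 1) (0, 2)) = 1 := by decide
  have h10 : -(dot2 (0, 1) (1, 0)) = 0 := by decide
  have h11 : -(dot2 (0, 1) (1, 1)) = 2 := by decide
  have h12 : -(dot2 (0, 1) (1, 2)) = 1 := by decide
  have h20 : -(dot2 (0, 1) (2, 0)) = 0 := by decide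
  have h21 : -(dot2 (0, 1) (2, 1)) = 2 := by decide
  have h22 : -(dot2 (0, 1) (2, 2)) = 1 := by decide
  have g00 : -(dot2 (1, 1) (0, 0)) = 0 := by decide
  have g01 : -(dot2 (1, 1) (0, 1)) = 2 := by decide
  have g02 : -(dot2 (1, 1) (0, 2)) = 1 := by decide
  have g10 : -(dot2 (1, 1) (1, 0)) = 2 := by decide
  have g11 : -(dot2 (1, 1) (1, 1)) = 1 := by decide
  have g12 : -(dot2 (1, 1) (1, 2)) = 0 := by decide
  have g20 : -(dot2 (1, 1) (2, 0)) = 1 := by decide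
  have g21 : -(dot2 (1, 1) (2, 1)) = 0 := by decide
  have g22 : -(dot2 (1, 1) (2, 2)) = 2 := by decide
  simp only [sum_A2, e00, f00, f01, f02, f10, f11, f12, f20, f21, f22, g00, g01, g02, g10, g11, g12, g20, g21, g22,
    h00, h01, h02, h10, h11, h12, h20, h21, h22, e3_zero, e3_one, e3_two, a1, a2, a3, a4, a5, hz, one_mul]
    at hm0 hm1 hm2 hm3
  push_cast at hm0 hm1 hm2 hm3
  refine ⟨m0, m1, m2, m3, ?_, ?_, ?_, ?_⟩
  · linear_combination (1 / 9) * hm0 + (2 / 9) * hm1 + (2 / 9) * hm2 + (4 / 9) * hm3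
  · linear_combination (1 / 9) * hm0 - (1 / 9) * hm1 + (2 / 9) * hm2 - (2 / 9) * hm3
  · linear_combination (1 / 9) * hm0 + (2 / 9) * hm1 - (1 / 9) * hm2 - (2 / 9) * hm3
  · linear_combination (1 / 9) * hm0 - (1 / 9) * hm1 - (1 / 9) * hm2 + (1 / 9) * hm3

/-- the three classes -/
def pt : Fin 3 → A2
  | 0 => (1, 0)
  | 1 => (0, 1)
  | 2 => (1, 1)

/-- centralizer orders -/
def co : Fin 3 → ℕ
  | 0 => 18
  | 1 => 18
  | 2 => 9

theorem pt_ne (i : Fin 3) : pt i ≠ 0 := by revert i; decide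

theorem cen_pt (i : Fin 3) : Nat.card (Subgroup.centralizer ({D.f (pt i)} : Set G)) = co i := by
  rw [D.card_centralizer (pt_ne i), card_A2, Nat.card_eq_fintype_card]
  revert i
  decide +kernel

theorem not_conj {i j : Fin 3} (hij : i ≠ j) : ¬ IsConj (D.f (pt i)) (D.f (pt j)) := by
  rw [D.isConj_iff_sg (pt_ne i)]
  revert i j
  decide

/-- integer values -/
structure Vals where
  d : IrrCharacter G → ℤ
  r : IrrCharacter G → ℤ
  c : IrrCharacter G → ℤ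
  a : Fin 3 → IrrCharacter G → ℤ
  hd : ∀ χ : IrrCharacter G, (χ : G → ℂ) 1 = d χ
  dpos : ∀ χ, 0 < d χ
  ha : ∀ (i : Fin 3) (χ : IrrCharacter G), (χ : G → ℂ) (D.f (pt i)) = a i χ
  a0 : ∀ χ, a 0 χ = a 2 χ + 3 * r χ
  a1 : ∀ χ, a 1 χ = a 2 χ + 3 * c χ

theorem exists_vals : Nonempty (Vals D) := by
  choose m0 m1 m2 m3 h1 h2 h3 h4 using exists_mults D
  refine ⟨{ d := fun χ => m0 χ + 2 * m1 χ + 2 * m2 χ + 4 * m3 χ
            r := fun χ => m2 χ - m3 χ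
            c := fun χ => m1 χ - m3 χ
            a := fun i χ => ![(m0 χ - m1 χ + 2 * m2 χ - 2 * m3 χ : ℤ), m0 χ + 2 * m1 χ - m2 χ - 2 * m3 χ,
              m0 χ - m1 χ - m2 χ + m3 χ] i
            hd := ?_, dpos := ?_, ha := ?_, a0 := ?_, a1 := ?_ }⟩
  · intro χ; rw [h1]; push_cast; ring
  · intro χ
    have h := irr_one_ne_zero χ.2
    have h' : (χ : G → ℂ) 1 = ((m0 χ + 2 * m1 χ + 2 * m2 χ + 4 * m3 χ : ℕ) : ℂ) := by rw [h1]; push_cast; ring
    rw [h'] at h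
    have h'' : m0 χ + 2 * m1 χ + 2 * m2 χ + 4 * m3 χ ≠ 0 := by exact_mod_cast h
    have := Nat.pos_of_ne_zero h''
    exact_mod_cast this
  · intro i χ
    fin_cases i
    · change (χ : G → ℂ) (D.f (1, 0)) = ((m0 χ - m1 χ + 2 * m2 χ - 2 * m3 χ : ℤ) : ℂ)
      rw [h2]; push_cast; ring
    · change (χ : G → ℂ) (D.f (0, 1)) = ((m0 χ + 2 * m1 χ - m2 χ - 2 * m3 χ : ℤ) : ℂ)
      rw [h3]; push_cast; ring
    · change (χ : G → ℂ) (D.f (1, 1)) = ((m0 χ - m1 χ - m2 χ + m3 χ : ℤ) : ℂ)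
      rw [h4]; push_cast; ring
  · intro χ
    change (m0 χ - m1 χ + 2 * m2 χ - 2 * m3 χ : ℤ) = (m0 χ - m1 χ - m2 χ + m3 χ : ℤ) + 3 * (m2 χ - m3 χ)
    ring
  · intro χ
    change (m0 χ + 2 * m1 χ - m2 χ - 2 * m3 χ : ℤ) = (m0 χ - m1 χ - m2 χ + m3 χ : ℤ) + 3 * (m1 χ - m3 χ)
    ring

variable {D} (V : Vals D) [Fintype (IrrCharacter G)]

theorem Vals.orth (i j : Fin 3) : ∑ χ : IrrCharacter G, V.a i χ * V.a j χ = if i = j then (co i : ℤ) else 0 := by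
  classical
  have h : ((∑ χ : IrrCharacter G, V.a i χ * V.a j χ : ℤ) : ℂ) = ((if i = j then (co i : ℤ) else 0 : ℤ) : ℂ) := by
    push_cast
    have e : ∀ χ : IrrCharacter G, (V.a i χ : ℂ) * V.a j χ = (χ : G → ℂ) (D.f (pt i)) * conj ((χ : G → ℂ) (D.f (pt j))) := by
      intro χ; rw [V.ha, V.ha]; simp
    rw [Finset.sum_congr rfl fun χ _ => e χ]
    by_cases hij : i = j
    · subst hij
      rw [if_pos rfl, column_orthogonality_of_isConj (IsConj.refl _), cen_pt]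
    · rw [if_neg hij, column_orthogonality_of_not_isConj (not_conj D hij)]
  exact_mod_cast h

theorem Vals.orth_deg (i : Fin 3) : ∑ χ : IrrCharacter G, V.d χ * V.a i χ = 0 := by
  classical
  have h : ((∑ χ : IrrCharacter G, V.d χ * V.a i χ : ℤ) : ℂ) = ((0 : ℤ) : ℂ) := by
    push_cast
    have e : ∀ χ : IrrCharacter G, (V.d χ : ℂ) * V.a i χ = (χ : G → ℂ) 1 * (χ : G → ℂ) (D.f (pt i)) := by
      intro χ; rw [V.hd, V.ha]
    rw [Finset.sum_congr rfl fun χ _ => e χ, sum_degree_mul, if_neg (D.f_ne_one (pt_ne i))]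
  exact_mod_cast h

theorem Vals.sum_sq : ∑ χ : IrrCharacter G, V.d χ ^ 2 = (Nat.card G : ℤ) := by
  have h : ((∑ χ : IrrCharacter G, V.d χ ^ 2 : ℤ) : ℂ) = (((Nat.card G : ℕ) : ℤ) : ℂ) := by
    push_cast
    rw [← sum_sq_degree]
    exact Finset.sum_congr rfl fun χ _ => by rw [V.hd]
  exact_mod_cast h

theorem Vals.triple (i j k : Fin 3) (n : ℕ)
    (hn : Nat.card {p : G × G // IsConj (D.f (pt i)) p.1 ∧ IsConj (D.f (pt j)) p.2 ∧ p.1 * p.2 = D.f (pt k)} = n) :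
    (Nat.card G : ℚ) * ∑ χ : IrrCharacter G, (V.a i χ : ℚ) * (V.a j χ : ℚ) * (V.a k χ : ℚ) / (V.d χ : ℚ) =
      n * co i * co j := by
  have h1 := class_const (D.f (pt i)) (D.f (pt j)) (D.f (pt k))
  rw [hn, cen_pt, cen_pt] at h1
  have e : ∀ χ : IrrCharacter G, (χ : G → ℂ) (D.f (pt i)) * (χ : G → ℂ) (D.f (pt j)) * conj ((χ : G → ℂ) (D.f (pt k))) /
      (χ : G → ℂ) 1 = (((V.a i χ : ℚ) * (V.a j χ : ℚ) * (V.a k χ : ℚ) / (V.d χ : ℚ) : ℚ) : ℂ) := by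
    intro χ
    rw [V.ha, V.ha, V.ha, V.hd]
    push_cast
    simp
  rw [Finset.sum_congr rfl fun χ _ => e χ] at h1
  have h2 : (((Nat.card G : ℚ) * ∑ χ : IrrCharacter G, (V.a i χ : ℚ) * (V.a j χ : ℚ) * (V.a k χ : ℚ) / (V.d χ : ℚ) : ℚ) : ℂ) =
      ((n * co i * co j : ℚ) : ℂ) := by
    push_cast
    push_cast at h1
    exact h1
  exact_mod_cast h2

theorem card_001 : Nat.card {p : G × G // IsConj (D.f (pt 0)) p.1 ∧ IsConj (D.f (pt 0)) p.2 ∧ p.1 * p.2 = D.f (pt 1)} = 0 := by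
  rw [D.card_triples (by decide) (by decide) (by decide) (by decide), Nat.card_eq_fintype_card]; decide +kernel
theorem card_002 : Nat.card {p : G × G // IsConj (D.f (pt 0)) p.1 ∧ IsConj (D.f (pt 0)) p.2 ∧ p.1 * p.2 = D.f (pt 2)} = 0 := by
  rw [D.card_triples (by decide) (by decide) (by decide) (by decide), Nat.card_eq_fintype_card]; decide +kernel
theorem card_110 : Nat.card {p : G × G // IsConj (D.f (pt 1)) p.1 ∧ IsConj (D.f (pt 1)) p.2 ∧ p.1 * p.2 = D.f (pt 0)} = 0 := by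
  rw [D.card_triples (by decide) (by decide) (by decide) (by decide), Nat.card_eq_fintype_card]; decide +kernel
theorem card_112 : Nat.card {p : G × G // IsConj (D.f (pt 1)) p.1 ∧ IsConj (D.f (pt 1)) p.2 ∧ p.1 * p.2 = D.f (pt 2)} = 0 := by
  rw [D.card_triples (by decide) (by decide) (by decide) (by decide), Nat.card_eq_fintype_card]; decide +kernel
theorem card_012 : Nat.card {p : G × G // IsConj (D.f (pt 0)) p.1 ∧ IsConj (D.f (pt 1)) p.2 ∧ p.1 * p.2 = D.f (pt 2)} = 1 := by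
  rw [D.card_triples (by decide) (by decide) (by decide) (by decide), Nat.card_eq_fintype_card]; decide +kernel

theorem Vals.one_a (i : Fin 3) : V.a i (oneIrr G) = 1 := by
  have h : ((V.a i (oneIrr G) : ℤ) : ℂ) = ((1 : ℤ) : ℂ) := by
    rw [← V.ha, oneIrr_apply]; simp
  exact_mod_cast h

theorem Vals.one_d : V.d (oneIrr G) = 1 := by
  have h : ((V.d (oneIrr G) : ℤ) : ℂ) = ((1 : ℤ) : ℂ) := by
    rw [← V.hd, oneIrr_apply]; simp
  exact_mod_cast h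

include V in
theorem Vals.dat : Nonempty (Dat (IrrCharacter G) (Nat.card G)) := by
  have hG : (Nat.card G : ℚ) ≠ 0 := by exact_mod_cast Nat.card_pos.ne'
  have o00 := V.orth 0 0
  have o01 := V.orth 0 1
  have o02 := V.orth 0 2
  have o11 := V.orth 1 1
  have o12 := V.orth 1 2
  have o22 := V.orth 2 2
  simp only [co, if_true, if_false, Fin.isValue, Fin.reduceEq] at o00 o01 o02 o11 o12 o22
  have d0 := V.orth_deg 0
  have d1 := V.orth_deg 1
  have d2 := V.orth_deg 2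
  have hr : ∀ χ, 3 * V.r χ = V.a 0 χ - V.a 2 χ := fun χ => by rw [V.a0]; ring
  have hc : ∀ χ, 3 * V.c χ = V.a 1 χ - V.a 2 χ := fun χ => by rw [V.a1]; ring
  have t001 := V.triple 0 0 1 0 card_001
  have t002 := V.triple 0 0 2 0 card_002
  have t110 := V.triple 1 1 0 0 card_110
  have t112 := V.triple 1 1 2 0 card_112
  have t012 := V.triple 0 1 2 1 card_012
  simp only [co, Nat.cast_zero, zero_mul, Nat.cast_one, one_mul] at t001 t002 t110 t112 t012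
  have t001' := (mul_eq_zero.1 t001).resolve_left hG
  have t002' := (mul_eq_zero.1 t002).resolve_left hG
  have t110' := (mul_eq_zero.1 t110).resolve_left hG
  have t112' := (mul_eq_zero.1 t112).resolve_left hG
  refine ⟨{ d := V.d, r := V.r, c := V.c, γ := V.a 2, i0 := oneIrr G, d0 := V.one_d, r0 := ?_, c0 := ?_, γ0 := V.one_a 2,
            dpos := V.dpos, rr := ?_, cc := ?_, rc := ?_, γγ := ?_, γr := ?_, γc := ?_, dr := ?_, dc := ?_,
            dd := V.sum_sq, acc := ?_, brr := ?_, abc := ?_ }⟩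
  · have := hr (oneIrr G); rw [V.one_a, V.one_a] at this; omega
  · have := hc (oneIrr G); rw [V.one_a, V.one_a] at this; omega
  · have h : 9 * ∑ χ, V.r χ ^ 2 = 27 := by
      rw [Finset.mul_sum]
      have e : ∀ χ, 9 * V.r χ ^ 2 = V.a 0 χ * V.a 0 χ - 2 * (V.a 0 χ * V.a 2 χ) + V.a 2 χ * V.a 2 χ := by
        intro χ; linear_combination (3 * V.r χ + V.a 0 χ - V.a 2 χ) * hr χ
      rw [Finset.sum_congr rfl fun χ _ => e χ, Finset.sum_add_distrib, Finset.sum_sub_distrib, ← Finset.mul_sum, o00, o02, o22]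
      norm_num
    linarith
  · have h : 9 * ∑ χ, V.c χ ^ 2 = 27 := by
      rw [Finset.mul_sum]
      have e : ∀ χ, 9 * V.c χ ^ 2 = V.a 1 χ * V.a 1 χ - 2 * (V.a 1 χ * V.a 2 χ) + V.a 2 χ * V.a 2 χ := by
        intro χ; linear_combination (3 * V.c χ + V.a 1 χ - V.a 2 χ) * hc χ
      rw [Finset.sum_congr rfl fun χ _ => e χ, Finset.sum_add_distrib, Finset.sum_sub_distrib, ← Finset.mul_sum, o11, o12, o22]
      norm_num
    linarith
  · have h : 9 * ∑ χ, V.r χ * V.c χ = 9 := by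
      rw [Finset.mul_sum]
      have e : ∀ χ, 9 * (V.r χ * V.c χ) = V.a 0 χ * V.a 1 χ - V.a 0 χ * V.a 2 χ - V.a 1 χ * V.a 2 χ + V.a 2 χ * V.a 2 χ := by
        intro χ; linear_combination (3 * V.c χ) * hr χ + (V.a 0 χ - V.a 2 χ) * hc χ
      rw [Finset.sum_congr rfl fun χ _ => e χ, Finset.sum_add_distrib, Finset.sum_sub_distrib, Finset.sum_sub_distrib, o01,
        o02, o12, o22]
      norm_num
    linarith
  · rw [Finset.sum_congr rfl fun χ _ => pow_two _, o22]; norm_num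
  · have h : 3 * ∑ χ, V.a 2 χ * V.r χ = -9 := by
      rw [Finset.mul_sum]
      have e : ∀ χ, 3 * (V.a 2 χ * V.r χ) = V.a 0 χ * V.a 2 χ - V.a 2 χ * V.a 2 χ := by
        intro χ; linear_combination (V.a 2 χ) * hr χ
      rw [Finset.sum_congr rfl fun χ _ => e χ, Finset.sum_sub_distrib, o02, o22]
      norm_num
    linarith
  · have h : 3 * ∑ χ, V.a 2 χ * V.c χ = -9 := by
      rw [Finset.mul_sum]
      have e : ∀ χ, 3 * (V.a 2 χ * V.c χ) = V.a 1 χ * V.a 2 χ - V.a 2 χ * V.a 2 χ := by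
        intro χ; linear_combination (V.a 2 χ) * hc χ
      rw [Finset.sum_congr rfl fun χ _ => e χ, Finset.sum_sub_distrib, o12, o22]
      norm_num
    linarith
  · have h : 3 * ∑ χ, V.d χ * V.r χ = 0 := by
      rw [Finset.mul_sum]
      have e : ∀ χ, 3 * (V.d χ * V.r χ) = V.d χ * V.a 0 χ - V.d χ * V.a 2 χ := by
        intro χ; linear_combination (V.d χ) * hr χ
      rw [Finset.sum_congr rfl fun χ _ => e χ, Finset.sum_sub_distrib, d0, d2]
      norm_num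
    linarith
  · have h : 3 * ∑ χ, V.d χ * V.c χ = 0 := by
      rw [Finset.mul_sum]
      have e : ∀ χ, 3 * (V.d χ * V.c χ) = V.d χ * V.a 1 χ - V.d χ * V.a 2 χ := by
        intro χ; linear_combination (V.d χ) * hc χ
      rw [Finset.sum_congr rfl fun χ _ => e χ, Finset.sum_sub_distrib, d1, d2]
      norm_num
    linarith
  · have h : (3 : ℚ) * ∑ χ, ((V.a 2 χ + 3 * V.r χ : ℤ) : ℚ) ^ 2 / (V.d χ : ℚ) * (V.c χ : ℚ) = 0 := by
      rw [Finset.mul_sum]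
      have e : ∀ χ, (3 : ℚ) * (((V.a 2 χ + 3 * V.r χ : ℤ) : ℚ) ^ 2 / (V.d χ : ℚ) * (V.c χ : ℚ)) =
          (V.a 0 χ : ℚ) * (V.a 0 χ : ℚ) * (V.a 1 χ : ℚ) / (V.d χ : ℚ) -
          (V.a 0 χ : ℚ) * (V.a 0 χ : ℚ) * (V.a 2 χ : ℚ) / (V.d χ : ℚ) := by
        intro χ
        rw [← V.a0, V.a1]
        push_cast
        ring
      rw [Finset.sum_congr rfl fun χ _ => e χ, Finset.sum_sub_distrib, t001', t002']
      norm_num
    linarith
  · have h : (3 : ℚ) * ∑ χ, ((V.a 2 χ + 3 * V.c χ : ℤ) : ℚ) ^ 2 / (V.d χ : ℚ) * (V.r χ : ℚ) = 0 := by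
      rw [Finset.mul_sum]
      have e : ∀ χ, (3 : ℚ) * (((V.a 2 χ + 3 * V.c χ : ℤ) : ℚ) ^ 2 / (V.d χ : ℚ) * (V.r χ : ℚ)) =
          (V.a 1 χ : ℚ) * (V.a 1 χ : ℚ) * (V.a 0 χ : ℚ) / (V.d χ : ℚ) -
          (V.a 1 χ : ℚ) * (V.a 1 χ : ℚ) * (V.a 2 χ : ℚ) / (V.d χ : ℚ) := by
        intro χ
        rw [← V.a1, V.a0]
        push_cast
        ring
      rw [Finset.sum_congr rfl fun χ _ => e χ, Finset.sum_sub_distrib, t110', t112']
      norm_num
    linarith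
  · have h : (3 : ℚ) * (∑ χ, ((V.a 2 χ + 3 * V.r χ : ℤ) : ℚ) * (V.a 2 χ : ℚ) / (V.d χ : ℚ) * (V.c χ : ℚ) -
        ∑ χ, ((V.a 2 χ + 3 * V.r χ : ℤ) : ℚ) * (V.a 2 χ : ℚ) / (V.d χ : ℚ) * (V.r χ : ℚ)) =
        ∑ χ : IrrCharacter G, (V.a 0 χ : ℚ) * (V.a 1 χ : ℚ) * (V.a 2 χ : ℚ) / (V.d χ : ℚ) -
        ∑ χ : IrrCharacter G, (V.a 0 χ : ℚ) * (V.a 0 χ : ℚ) * (V.a 2 χ : ℚ) / (V.d χ : ℚ) := by
      rw [← Finset.sum_sub_distrib, ← Finset.sum_sub_distrib, Finset.mul_sum]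
      refine Finset.sum_congr rfl fun χ _ => ?_
      rw [V.a0, V.a1]
      push_cast
      ring
    rw [h, t002', sub_zero, t012]
    norm_num

end

/-- the group order is 36 -/
theorem card_eq {G : Type*} [Group G] [Finite G] {H : Subgroup G} (D : TI H sgK) : Nat.card G = 36 ∧ Nat.card H = 36 := by
  classical
  have := Fintype.ofFinite (IrrCharacter G)
  have hH : Nat.card H = 36 := by
    rw [D.card_H, card_A2, Nat.card_eq_fintype_card]; rfl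
  obtain ⟨V⟩ := exists_vals D
  obtain ⟨X⟩ := V.dat
  refine ⟨main_num X ?_, hH⟩
  rw [← hH]
  exact Subgroup.card_subgroup_dvd_card H

end Cfsg.Agent.H31.K9
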