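import Cfsg.Agent.Tri3.Nine.Coord

/-!
# The group `3² : 2²` in coordinates
-/

set_option autoImplicit false
set_option linter.unusedSectionVars false

namespace Cfsg.Agent.H31.K9

open Cfsg.Agent.Tri3 Multiplicative

/-- the diagonal action -/
def sgK (i : Bool × Bool) (v : A2) : A2 := (if i.1 then -v.1 else v.1, if i.2 then -v.2 else v.2)

section

variable {G : Type*} [Group G]

theorem exists_compl [Finite G] (S : Subgroup G) (hcard : Nat.card S = 9)
    (hn : (S.subgroupOf (Subgroup.normalizer (S : Set G))).Normal)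
    (hK : IsKleinFour (Subgroup.normalizer (S : Set G) ⧸ S.subgroupOf (Subgroup.normalizer (S : Set G)))) :
    ∃ K : Subgroup G, K ≤ Subgroup.normalizer (S : Set G) ∧
      (∀ h ∈ Subgroup.normalizer (S : Set G), ∃ v ∈ S, ∃ k ∈ K, h = v * k) ∧ (∀ k ∈ K, k ∈ S → k = 1) ∧
      Nat.card K = 4 ∧ ∀ k ∈ K, k * k = 1 := by
  set H := Subgroup.normalizer (S : Set G) with hH
  have hSH : S ≤ H := Subgroup.le_normalizer
  let N' := S.subgroupOf H
  have hN' : Nat.card N' = 9 := by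
    rw [← hcard]; exact Nat.card_congr (Subgroup.subgroupOfEquivOfLe hSH).toEquiv
  have hidx : N'.index = 4 := by
    rw [Subgroup.index_eq_card]; exact hK.card_four
  obtain ⟨K, hKc⟩ := Subgroup.exists_right_complement'_of_coprime (N := N') (by rw [hN', hidx]; decide)
  let κ : H ⧸ N' ≃* K := hKc.symm.QuotientMulEquiv
  have hsq : ∀ k : K, k * k = 1 := by
    intro k
    have h1 : κ.symm k * κ.symm k = 1 := by
      have h2 := hK.exponent_two
      have h3 := Monoid.pow_exponent_eq_one (κ.symm k)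
      rw [h2, pow_two] at h3
      exact h3
    rw [← map_mul] at h1
    exact (MulEquiv.map_eq_one_iff _).1 h1
  refine ⟨K.map H.subtype, ?_, ?_, ?_, ?_, ?_⟩
  · rintro _ ⟨k, -, rfl⟩; exact k.2
  · intro h hh
    obtain ⟨⟨n, k⟩, hnk⟩ := hKc.2 ⟨h, hh⟩
    exact ⟨(n : H), n.2, ((k : H) : G), ⟨k, k.2, rfl⟩, (congrArg Subtype.val hnk).symm⟩
  · rintro _ ⟨k, hk, rfl⟩ hkS
    have h2 : k ∈ N' ⊓ K := ⟨hkS, hk⟩
    rw [hKc.disjoint.eq_bot, Subgroup.mem_bot] at h2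
    rw [h2]; rfl
  · rw [Subgroup.card_map_of_injective H.subtype_injective, ← Nat.card_congr κ.toEquiv]
    exact hK.card_four
  · rintro _ ⟨k, hk, rfl⟩
    have := congrArg (fun z : K => ((z : H) : G)) (hsq ⟨k, hk⟩)
    exact this

variable {x y : G} (hx3 : x ^ 3 = 1) (hy3 : y ^ 3 = 1) (hxy : x * y = y * x)

theorem act {h : G} {i : Bool × Bool} (h1 : h * x * h⁻¹ = if i.1 then x⁻¹ else x)
    (h2 : h * y * h⁻¹ = if i.2 then y⁻¹ else y) (v : A2) :
    h * F2 hx3 hy3 hxy (ofAdd v) * h⁻¹ = F2 hx3 hy3 hxy (ofAdd (sgK i v)) := by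
  obtain ⟨a, b⟩ := v
  obtain ⟨i1, i2⟩ := i
  rw [F2_apply]
  have e1 : h * (x ^ a.val * y ^ b.val) * h⁻¹ = (h * x ^ a.val * h⁻¹) * (h * y ^ b.val * h⁻¹) := by group
  rw [e1, ← conj_pow, ← conj_pow, h1, h2]
  rcases i1 <;> rcases i2 <;> simp only [sgK, F2_apply, if_true, Bool.false_eq_true, if_false]
  · rw [pow_val_neg hy3, inv_pow]
  · rw [pow_val_neg hx3, inv_pow]
  · rw [pow_val_neg hx3, pow_val_neg hy3, inv_pow, inv_pow]

theorem pow_zmod {w : G} (hw3 : w ^ 3 = 1) (hw1 : w ≠ 1) (c : ZMod 3) (hc : w ^ c.val = 1) : c = 0 := by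
  have h : ∀ c : ZMod 3, c = 0 ∨ c = 1 ∨ c = 2 := by decide
  rcases h c with rfl | rfl | rfl
  · rfl
  · exfalso; apply hw1
    have : (1 : ZMod 3).val = 1 := rfl
    rw [this, pow_one] at hc; exact hc
  · exfalso; apply hw1
    have : (2 : ZMod 3).val = 2 := rfl
    rw [this] at hc
    rw [pow_succ, hc, one_mul] at hw3; exact hw3

theorem F2_inj {s : G} (h1 : s * x * s⁻¹ = x⁻¹) (h2 : s * y * s⁻¹ = y) (hx1 : x ≠ 1) (hy1 : y ≠ 1) :
    Function.Injective (F2 hx3 hy3 hxy) := by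
  rw [injective_iff_map_eq_one]
  intro v hv
  obtain ⟨a, b⟩ := v
  change F2 hx3 hy3 hxy (ofAdd (a, b)) = 1 at hv
  have hs := act hx3 hy3 hxy (h := s) (i := (true, false)) h1 h2 (a, b)
  rw [hv, mul_one, mul_inv_cancel] at hs
  rw [F2_apply] at hv
  have hs' : x ^ (-a).val * y ^ b.val = 1 := by rw [← F2_apply hx3 hy3 hxy]; exact hs.symm
  have h5 : x ^ a.val = x ^ (-a).val := mul_right_cancel (hv.trans hs'.symm)
  rw [pow_val_neg hx3] at h5
  have h6 : x ^ a.val = 1 := by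
    have h7 : (x ^ a.val) ^ 3 = 1 := by rw [← pow_mul, mul_comm, pow_mul, hx3, one_pow]
    have h8 : x ^ a.val * x ^ a.val = 1 := by
      nth_rewrite 2 [h5]; exact mul_inv_cancel _
    rw [pow_succ, pow_two, h8, one_mul] at h7
    exact h7
  have ha := pow_zmod hx3 hx1 a h6
  rw [h6, one_mul] at hv
  have hb := pow_zmod hy3 hy1 b hv
  rw [ha, hb]
  rfl

/-- elements commuting with `s` act diagonally -/
theorem diag {s h : G} (h1 : s * x * s⁻¹ = x⁻¹) (h2 : s * y * s⁻¹ = y) (hx1 : x ≠ 1) (hy1 : y ≠ 1)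
    (hsh : s * h = h * s) (hxF : ∃ v, h * x * h⁻¹ = F2 hx3 hy3 hxy (ofAdd v))
    (hyF : ∃ v, h * y * h⁻¹ = F2 hx3 hy3 hxy (ofAdd v)) :
    ∃ i : Bool × Bool, h * x * h⁻¹ = (if i.1 then x⁻¹ else x) ∧ h * y * h⁻¹ = (if i.2 then y⁻¹ else y) := by
  have hinj := F2_inj hx3 hy3 hxy h1 h2 hx1 hy1
  have hx : F2 hx3 hy3 hxy (ofAdd (1, 0)) = x := by
    rw [F2_apply]
    have e1 : (1 : ZMod 3).val = 1 := rfl
    have e0 : (0 : ZMod 3).val = 0 := rfl
    rw [e1, e0, pow_one, pow_zero, mul_one]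
  have hy : F2 hx3 hy3 hxy (ofAdd (0, 1)) = y := by
    rw [F2_apply]
    have e1 : (1 : ZMod 3).val = 1 := rfl
    have e0 : (0 : ZMod 3).val = 0 := rfl
    rw [e1, e0, pow_one, pow_zero, one_mul]
  obtain ⟨v, hv⟩ := hxF
  obtain ⟨w, hw⟩ := hyF
  have hconj : ∀ u : G, s * (h * u * h⁻¹) * s⁻¹ = h * (s * u * s⁻¹) * h⁻¹ := by
    intro u
    calc s * (h * u * h⁻¹) * s⁻¹ = (s * h) * u * (s * h)⁻¹ := by group
      _ = (h * s) * u * (h * s)⁻¹ := by rw [hsh]
      _ = _ := by group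
  have kv : sgK (true, false) v = -v := by
    have h3 := act hx3 hy3 hxy (h := s) (i := (true, false)) h1 h2 v
    rw [← hv, hconj, h1] at h3
    have h4 : h * x⁻¹ * h⁻¹ = (F2 hx3 hy3 hxy (ofAdd v))⁻¹ := by rw [← hv]; group
    rw [h4, ← map_inv, ← ofAdd_neg] at h3
    exact (ofAdd.injective (hinj h3)).symm
  have kw : sgK (true, false) w = w := by
    have h3 := act hx3 hy3 hxy (h := s) (i := (true, false)) h1 h2 w
    rw [← hw, hconj, h2, hw] at h3
    exact (ofAdd.injective (hinj h3)).symm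
  have nv : v ≠ 0 := by
    rintro rfl
    rw [ofAdd_zero, map_one] at hv
    apply hx1
    calc x = h⁻¹ * (h * x * h⁻¹) * h := by group
      _ = 1 := by rw [hv]; group
  have nw : w ≠ 0 := by
    rintro rfl
    rw [ofAdd_zero, map_one] at hw
    apply hy1
    calc y = h⁻¹ * (h * y * h⁻¹) * h := by group
      _ = 1 := by rw [hw]; group
  have cv : ∀ v : A2, sgK (true, false) v = -v → v ≠ 0 → v = (1, 0) ∨ v = -(1, 0) := by decide
  have cw : ∀ v : A2, sgK (true, false) v = v → v ≠ 0 → v = (0, 1) ∨ v = -(0, 1) := by decide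
  have a1 : ∃ i : Bool, h * x * h⁻¹ = if i then x⁻¹ else x := by
    rcases cv v kv nv with rfl | rfl
    · exact ⟨false, by rw [hv, hx]; rfl⟩
    · exact ⟨true, by rw [hv, ofAdd_neg, map_inv, hx]; rfl⟩
  have a2 : ∃ i : Bool, h * y * h⁻¹ = if i then y⁻¹ else y := by
    rcases cw w kw nw with rfl | rfl
    · exact ⟨false, by rw [hw, hy]; rfl⟩
    · exact ⟨true, by rw [hw, ofAdd_neg, map_inv, hy]; rfl⟩
  obtain ⟨i1, hi1⟩ := a1
  obtain ⟨i2, hi2⟩ := a2
  exact ⟨(i1, i2), hi1, hi2⟩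

end

end Cfsg.Agent.H31.K9
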