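import Cfsg.Agent.H31.K9.Coord

/-!
# Existence of the coordinates of `3² : 2²`
-/

set_option autoImplicit false
set_option linter.unusedSectionVars false

namespace Cfsg.Agent.H31.K9

open Cfsg.Agent.Tri3 Multiplicative

theorem exists_two {G : Type*} [Group G] [Finite G] (K : Subgroup G) (h : Nat.card K = 4) :
    ∃ a ∈ K, ∃ b ∈ K, a ≠ 1 ∧ b ≠ 1 ∧ a ≠ b := by
  obtain ⟨a, ha, ha1⟩ := (Subgroup.bot_or_exists_ne_one K).resolve_left (by
    rintro rfl; rw [Subgroup.card_bot] at h; omega)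
  by_contra hcon
  push Not at hcon
  have h1 : ∀ b ∈ K, b = 1 ∨ b = a := by
    intro b hb
    by_cases hb1 : b = 1
    · exact Or.inl hb1
    · exact Or.inr (hcon a ha b hb ha1 hb1).symm
  classical
  have h2 : Function.Injective (fun k : K => decide ((k : G) = 1)) := by
    rintro ⟨k, hk⟩ ⟨l, hl⟩ hkl
    simp only [decide_eq_decide] at hkl
    apply Subtype.ext
    change k = l
    rcases h1 k hk with h3 | h3 <;> rcases h1 l hl with h4 | h4
    · rw [h3, h4]
    · exact absurd ((hkl.1 h3).symm.trans h4) (fun h => ha1 h.symm)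
    · exact absurd ((hkl.2 h4).symm.trans h3) (fun h => ha1 h.symm)
    · rw [h3, h4]
  have h3 := Nat.card_le_card_of_injective _ h2
  rw [h, Nat.card_eq_fintype_card, Fintype.card_bool] at h3
  omega

theorem exists_D4 {G : Type*} [Group G] [Finite G] (S : Subgroup G) (hcard : Nat.card S = 9)
    (hexp : ∀ x ∈ S, x ^ 3 = 1) (hC : Subgroup.centralizer (S : Set G) = S)
    (hn : (S.subgroupOf (Subgroup.normalizer (S : Set G))).Normal)
    (hK : IsKleinFour (Subgroup.normalizer (S : Set G) ⧸ S.subgroupOf (Subgroup.normalizer (S : Set G))))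
    (hcent : ∀ x ∈ S, x ≠ 1 → Subgroup.centralizer ({x} : Set G) ≤ Subgroup.normalizer (S : Set G)) :
    Nonempty (TI (Subgroup.normalizer (S : Set G)) sgK) := by
  obtain ⟨K, hKN, hex, hKS, hK4, hKK⟩ := exists_compl S hcard hn hK
  have hcen : ∀ g : G, (∀ x ∈ S, g * x = x * g) → g ∈ S := by
    intro g hg
    rw [← hC, Subgroup.mem_centralizer_iff]
    intro x hx
    exact (hg x hx).symm
  have hab : ∀ x ∈ S, ∀ y ∈ S, x * y = y * x := by
    intro x hx y hy
    rw [← hC, Subgroup.mem_centralizer_iff] at hx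
    exact (hx y hy).symm
  have hnor : ∀ k ∈ K, ∀ x ∈ S, k * x * k⁻¹ ∈ S := by
    intro k hk x hx
    exact (Subgroup.mem_normalizer_iff.1 (hKN hk) x).1 hx
  have hinv : ∀ k ∈ K, k⁻¹ = k := by
    intro k hk
    exact inv_eq_of_mul_eq_one_right (hKK k hk)
  have hKab : ∀ a ∈ K, ∀ b ∈ K, a * b = b * a := by
    intro a ha b hb
    have h1 := hinv _ (K.mul_mem ha hb)
    rw [mul_inv_rev, hinv a ha, hinv b hb] at h1
    exact h1.symm
  have faith : ∀ k ∈ K, (∀ x ∈ S, k * x * k⁻¹ = x) → k = 1 := by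
    intro k hk h
    apply hKS k hk
    apply hcen
    intro x hx
    calc k * x = k * x * k⁻¹ * k := by group
      _ = x * k := by rw [h x hx]
  -- a non-inverting element
  obtain ⟨s, hs, m, hm, hs1, hm1, hsm, u, hu, hu1⟩ : ∃ s ∈ K, ∃ m ∈ K, s ≠ 1 ∧ m ≠ 1 ∧ s ≠ m ∧
      ∃ u ∈ S, s * u * s⁻¹ ≠ u⁻¹ := by
    obtain ⟨a, ha, b, hb, ha1, hb1, hab'⟩ := exists_two K hK4
    by_cases h1 : ∃ u ∈ S, a * u * a⁻¹ ≠ u⁻¹
    · exact ⟨a, ha, b, hb, ha1, hb1, hab', h1⟩
    by_cases h2 : ∃ u ∈ S, b * u * b⁻¹ ≠ u⁻¹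
    · exact ⟨b, hb, a, ha, hb1, ha1, hab'.symm, h2⟩
    exfalso
    push Not at h1 h2
    apply hab'
    have h3 : a * b = 1 := by
      apply faith _ (K.mul_mem ha hb)
      intro x hx
      calc a * b * x * (a * b)⁻¹ = a * (b * x * b⁻¹) * a⁻¹ := by group
        _ = a * x⁻¹ * a⁻¹ := by rw [h2 x hx]
        _ = x := by rw [h1 _ (S.inv_mem hx), inv_inv]
    have h4 := inv_eq_of_mul_eq_one_right h3
    rw [hinv a ha] at h4
    exact h4
  have hss := hKK s hs
  have hs2 : ∀ x : G, s * (s * x * s⁻¹) * s⁻¹ = x := by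
    intro x
    calc s * (s * x * s⁻¹) * s⁻¹ = (s * s) * x * (s * s)⁻¹ := by group
      _ = x := by rw [hss]; group
  obtain ⟨w, hw, hw1⟩ : ∃ w ∈ S, s * w * s⁻¹ ≠ w := by
    by_contra hcon
    push Not at hcon
    exact hs1 (faith s hs hcon)
  obtain ⟨y, hy⟩ : ∃ y, y = u * (s * u * s⁻¹) := ⟨_, rfl⟩
  obtain ⟨x, hx⟩ : ∃ x, x = w⁻¹ * (s * w * s⁻¹) := ⟨_, rfl⟩
  have hyS : y ∈ S := by rw [hy]; exact S.mul_mem hu (hnor s hs u hu)
  have hxS : x ∈ S := by rw [hx]; exact S.mul_mem (S.inv_mem hw) (hnor s hs w hw)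
  have hy1 : y ≠ 1 := by
    intro h; rw [hy] at h
    exact hu1 (inv_eq_of_mul_eq_one_right h).symm
  have hx1 : x ≠ 1 := by
    intro h; rw [hx] at h
    exact hw1 (inv_mul_eq_one.1 h).symm
  have hsy : s * y * s⁻¹ = y := by
    have e1 : s * y * s⁻¹ = (s * u * s⁻¹) * (s * (s * u * s⁻¹) * s⁻¹) := by rw [hy]; group
    rw [e1, hs2, hy]
    exact hab _ (hnor s hs u hu) _ hu
  have hsx : s * x * s⁻¹ = x⁻¹ := by
    have e1 : s * x * s⁻¹ = (s * w * s⁻¹)⁻¹ * (s * (s * w * s⁻¹) * s⁻¹) := by rw [hx]; group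
    rw [e1, hs2, hx]; group
  have hxy := hab x hxS y hyS
  have hx3 := hexp x hxS
  have hy3 := hexp y hyS
  have hFinj := F2_inj hx3 hy3 hxy hsx hsy hx1 hy1
  have hrange : (F2 hx3 hy3 hxy).range = S := by
    apply Subgroup.eq_of_le_of_card_ge
    · rintro _ ⟨v, rfl⟩
      exact S.mul_mem (S.pow_mem hxS _) (S.pow_mem hyS _)
    · rw [hcard]
      have h5 : Nat.card (Multiplicative A2) = 9 := by
        change Nat.card A2 = 9
        simp [Nat.card_eq_fintype_card, ZMod.card]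
      have h6 : Nat.card (F2 hx3 hy3 hxy).range = Nat.card (Multiplicative A2) :=
        Nat.card_congr (MonoidHom.ofInjective hFinj).toEquiv.symm
      rw [h6, h5]
  have hsurj : ∀ v ∈ S, ∃ a : A2, v = F2 hx3 hy3 hxy (ofAdd a) := by
    intro v hv
    rw [← hrange] at hv
    obtain ⟨a, rfl⟩ := hv
    exact ⟨a.toAdd, rfl⟩
  have hdiag : ∀ h ∈ K, ∃ i : Bool × Bool, h * x * h⁻¹ = (if i.1 then x⁻¹ else x) ∧
      h * y * h⁻¹ = (if i.2 then y⁻¹ else y) := fun h hh =>
    diag hx3 hy3 hxy hsx hsy hx1 hy1 (hKab s hs h hh) (hsurj _ (hnor h hh x hxS)) (hsurj _ (hnor h hh y hyS))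
  have huniq : ∀ h ∈ K, ∀ h' ∈ K, h * x * h⁻¹ = h' * x * h'⁻¹ → h * y * h⁻¹ = h' * y * h'⁻¹ → h = h' := by
    intro h hh h' hh' e1 e2
    have h1 : ∀ z : G, h * z * h⁻¹ = h' * z * h'⁻¹ → (h'⁻¹ * h) * z * (h'⁻¹ * h)⁻¹ = z := by
      intro z hz
      calc (h'⁻¹ * h) * z * (h'⁻¹ * h)⁻¹ = h'⁻¹ * (h * z * h⁻¹) * h' := by group
        _ = z := by rw [hz]; group
    have h2 : h'⁻¹ * h = 1 := by
      apply faith _ (K.mul_mem (K.inv_mem hh') hh)
      intro z hz
      obtain ⟨v, rfl⟩ := hsurj z hz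
      have h3 := act hx3 hy3 hxy (h := h'⁻¹ * h) (i := (false, false)) (h1 x e1) (h1 y e2) v
      rw [h3]
      rfl
    exact (inv_mul_eq_one.1 h2).symm
  have hsi : s * x * s⁻¹ = (if true then x⁻¹ else x) ∧ s * y * s⁻¹ = (if false then y⁻¹ else y) := ⟨hsx, hsy⟩
  obtain ⟨t, ht, htx, hty⟩ : ∃ t ∈ K, t * x * t⁻¹ = x ∧ t * y * t⁻¹ = y⁻¹ := by
    obtain ⟨⟨i1, i2⟩, hi1, hi2⟩ := hdiag m hm
    rcases i1 <;> rcases i2 <;> simp only [if_true, Bool.false_eq_true, if_false] at hi1 hi2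
    · exfalso
      apply hm1
      apply huniq m hm 1 K.one_mem
      · rw [hi1]; group
      · rw [hi2]; group
    · exact ⟨m, hm, hi1, hi2⟩
    · exfalso
      apply hsm
      apply huniq s hs m hm
      · rw [hi1, hsx]
      · rw [hi2, hsy]
    · refine ⟨m * s, K.mul_mem hm hs, ?_, ?_⟩
      · calc m * s * x * (m * s)⁻¹ = m * (s * x * s⁻¹) * m⁻¹ := by group
          _ = (m * x * m⁻¹)⁻¹ := by rw [hsx]; group
          _ = x := by rw [hi1, inv_inv]
      · calc m * s * y * (m * s)⁻¹ = m * (s * y * s⁻¹) * m⁻¹ := by group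
          _ = y⁻¹ := by rw [hsy, hi2]
  let e : Bool × Bool → G := fun i => (if i.1 then s else 1) * (if i.2 then t else 1)
  have heK : ∀ i, e i ∈ K := by
    rintro ⟨i1, i2⟩
    apply K.mul_mem
    · change (if i1 then s else 1) ∈ K
      split_ifs
      · exact hs
      · exact K.one_mem
    · change (if i2 then t else 1) ∈ K
      split_ifs
      · exact ht
      · exact K.one_mem
  have hex' : ∀ i : Bool × Bool, e i * x * (e i)⁻¹ = (if i.1 then x⁻¹ else x) := by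
    rintro ⟨i1, i2⟩
    change ((if i1 then s else 1) * (if i2 then t else 1)) * x * ((if i1 then s else 1) * (if i2 then t else 1))⁻¹ =
      (if i1 then x⁻¹ else x)
    have h1 : (if i2 then t else 1) * x * (if i2 then t else 1)⁻¹ = x := by
      split_ifs
      · exact htx
      · group
    have h2 : ∀ a b c : G, a * b * c * (a * b)⁻¹ = a * (b * c * b⁻¹) * a⁻¹ := by intro a b c; group
    rw [h2, h1]
    split_ifs
    · exact hsx
    · group
  have hey' : ∀ i : Bool × Bool, e i * y * (e i)⁻¹ = (if i.2 then y⁻¹ else y) := by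
    rintro ⟨i1, i2⟩
    change ((if i1 then s else 1) * (if i2 then t else 1)) * y * ((if i1 then s else 1) * (if i2 then t else 1))⁻¹ =
      (if i2 then y⁻¹ else y)
    have h1 : (if i2 then t else 1) * y * (if i2 then t else 1)⁻¹ = (if i2 then y⁻¹ else y) := by
      split_ifs
      · exact hty
      · group
    have h2 : ∀ a b c : G, a * b * c * (a * b)⁻¹ = a * (b * c * b⁻¹) * a⁻¹ := by intro a b c; group
    rw [h2, h1]
    have h3 : s * y⁻¹ * s⁻¹ = y⁻¹ := by
      calc s * y⁻¹ * s⁻¹ = (s * y * s⁻¹)⁻¹ := by group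
        _ = y⁻¹ := by rw [hsy]
    split_ifs
    · exact h3
    · exact hsy
    · group
    · group
  refine ⟨{ φ := F2 hx3 hy3 hxy, inj := hFinj, e := e, memφ := ?_, meme := fun i => hKN (heK i), cj := ?_, ex := ?_,
            cube := by decide, mem_of_cube := ?_, nor := ?_, cen := ?_, sg_inj := by decide }⟩
  · intro v
    apply Subgroup.le_normalizer
    rw [← hrange]
    exact ⟨v, rfl⟩
  · intro i v
    exact act hx3 hy3 hxy (hex' i) (hey' i) v
  · intro h hh
    obtain ⟨v, hv, k, hk, rfl⟩ := hex h hh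
    obtain ⟨a, rfl⟩ := hsurj v hv
    obtain ⟨i, hi1, hi2⟩ := hdiag k hk
    have hki : k = e i := huniq k hk _ (heK i) (by rw [hi1, hex']) (by rw [hi2, hey'])
    exact ⟨a, i, by rw [← hki]⟩
  · intro h hh h3'
    obtain ⟨v, hv, k, hk, rfl⟩ := hex h hh
    have h1 : (v * k) * (v * k) = v * (k * v * k⁻¹) := by
      calc (v * k) * (v * k) = v * (k * v * k⁻¹) * (k * k) := by group
        _ = _ := by rw [hKK k hk, mul_one]
    have h2 : v * k ∈ S := by
      have h4 : (v * k) = ((v * k) * (v * k))⁻¹ := by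
        rw [pow_succ, pow_two] at h3'
        exact (inv_eq_of_mul_eq_one_right h3').symm
      rw [h4, h1]
      exact S.inv_mem (S.mul_mem hv (hnor k hk v hv))
    exact hsurj _ h2
  · rw [hrange]
  · intro v hv
    apply hcent
    · rw [← hrange]; exact ⟨_, rfl⟩
    · intro h
      rw [← map_one (F2 hx3 hy3 hxy)] at h
      exact hv (ofAdd.injective (hFinj h))

end Cfsg.Agent.H31.K9
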