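import Mathlib

/-!
# Numerical part for a TI elementary abelian subgroup of order 9 with automizer of order 4
-/

set_option autoImplicit false

namespace Cfsg.Agent.H31.K9

/-- functions with sum of squares 3 -/
theorem supp_three {ι : Type*} [Fintype ι] (r : ι → ℤ) (h : ∑ i, r i ^ 2 = 3) :
    (Finset.univ.filter (fun i => r i ≠ 0)).card = 3 ∧ ∀ i, r i ≠ 0 → r i = 1 ∨ r i = -1 := by
  classical
  have h1 : ∑ i ∈ Finset.univ.filter (fun i => r i ≠ 0), r i ^ 2 = 3 := by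
    rw [← h]
    apply Finset.sum_filter_of_ne
    intro i _ hi h0
    apply hi
    rw [h0]; norm_num
  have h2 : ∀ i, r i ≠ 0 → r i = 1 ∨ r i = -1 := by
    intro i hi
    have h3 : r i ^ 2 ≤ ∑ j, r j ^ 2 := Finset.single_le_sum (fun j _ => sq_nonneg (r j)) (Finset.mem_univ i)
    rw [h] at h3
    have h4 : r i ≤ 1 := by nlinarith
    have h5 : -1 ≤ r i := by nlinarith
    omega
  refine ⟨?_, h2⟩
  have h3 : ∑ i ∈ Finset.univ.filter (fun i => r i ≠ 0), r i ^ 2 =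
      ∑ i ∈ Finset.univ.filter (fun i => r i ≠ 0), (1 : ℤ) := by
    refine Finset.sum_congr rfl fun i hi => ?_
    rw [Finset.mem_filter] at hi
    rcases h2 i hi.2 with h | h <;> rw [h] <;> norm_num
  rw [h1, Finset.sum_const, nsmul_eq_mul, mul_one] at h3
  exact_mod_cast h3.symm

/-- sums against a function supported on three points -/
theorem sum_supp {ι : Type*} [Fintype ι] [DecidableEq ι] {K : Type*} [CommRing K] (r : ι → ℤ) {Z A B : ι} (hZA : Z ≠ A) (hZB : Z ≠ B)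
    (hAB : A ≠ B) (hs : ∀ i, r i ≠ 0 → i = Z ∨ i = A ∨ i = B) (F : ι → K) :
    ∑ i, F i * (r i : K) = F Z * r Z + F A * r A + F B * r B := by
  have h1 : ∑ i ∈ ({Z, A, B} : Finset ι), F i * (r i : K) = ∑ i, F i * (r i : K) := by
    apply Finset.sum_subset (Finset.subset_univ _)
    intro i _ hi
    have h0 : r i = 0 := by
      by_contra h
      apply hi
      rcases hs i h with rfl | rfl | rfl <;> simp
    rw [h0]; simp
  rw [← h1, Finset.sum_insert (by simp [hZA, hZB]), Finset.sum_pair hAB, add_assoc]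

theorem exists_supp {ι : Type*} [Fintype ι] (r : ι → ℤ) (h : ∑ i, r i ^ 2 = 3) {Z : ι} (hZ : r Z ≠ 0) :
    ∃ A B, Z ≠ A ∧ Z ≠ B ∧ A ≠ B ∧ (∀ i, r i ≠ 0 → i = Z ∨ i = A ∨ i = B) ∧ (r A = 1 ∨ r A = -1) ∧
      (r B = 1 ∨ r B = -1) ∧ (r Z = 1 ∨ r Z = -1) := by
  classical
  obtain ⟨h1, h2⟩ := supp_three r h
  have h3 : ((Finset.univ.filter (fun i => r i ≠ 0)).erase Z).card = 2 := by
    rw [Finset.card_erase_of_mem (by simp [hZ]), h1]
  obtain ⟨A, B, hAB, hAB'⟩ := Finset.card_eq_two.1 h3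
  have hA : A ∈ (Finset.univ.filter (fun i => r i ≠ 0)).erase Z := by rw [hAB']; simp
  have hB : B ∈ (Finset.univ.filter (fun i => r i ≠ 0)).erase Z := by rw [hAB']; simp
  rw [Finset.mem_erase, Finset.mem_filter] at hA hB
  refine ⟨A, B, hA.1.symm, hB.1.symm, hAB, ?_, h2 _ hA.2.2, h2 _ hB.2.2, h2 _ hZ⟩
  intro i hi
  by_cases hiZ : i = Z
  · left; exact hiZ
  · right
    have : i ∈ (Finset.univ.filter (fun i => r i ≠ 0)).erase Z := by
      rw [Finset.mem_erase, Finset.mem_filter]; exact ⟨hiZ, Finset.mem_univ _, hi⟩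
    rw [hAB'] at this
    simpa using this

/-- the proportionality -/
theorem prop_key {DZ D1 D2 gZ g1 g2 : ℤ} (hD : DZ + D1 + D2 = 0) (hg : gZ + g1 + g2 = 3)
    (h : (3 - gZ) ^ 2 * D1 * D2 + g1 ^ 2 * DZ * D2 + g2 ^ 2 * DZ * D1 = 0) : g1 * D2 = g2 * D1 := by
  have h1 : DZ = -D1 - D2 := by linarith
  have h2 : gZ = 3 - g1 - g2 := by linarith
  subst h1 h2
  have h3 : (g1 * D2 - g2 * D1) ^ 2 = 0 := by linear_combination -h
  have h4 := pow_eq_zero_iff (two_ne_zero) |>.1 h3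
  linarith

theorem g_key {gZ a1 a2 b1 b2 : ℤ} (ha : gZ + a1 + a2 = 3) (hb : gZ + b1 + b2 = 3) (ha1 : a1 ≠ 0) (ha2 : a2 ≠ 0)
    (hb1 : b1 ≠ 0) (hb2 : b2 ≠ 0) (h : gZ ^ 2 + a1 ^ 2 + a2 ^ 2 + b1 ^ 2 + b2 ^ 2 ≤ 8) :
    gZ = 1 ∧ a1 = 1 ∧ a2 = 1 ∧ b1 = 1 ∧ b2 = 1 := by
  have key : ∀ x : ℤ, x ≠ 0 → 1 ≤ x ^ 2 := by
    intro x hx
    have h1 := sq_nonneg x
    have h2 : x ^ 2 ≠ 0 := pow_ne_zero 2 hx
    omega
  have p1 := key a1 ha1
  have p2 := key a2 ha2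
  have p3 := key b1 hb1
  have p4 := key b2 hb2
  have p0 : 0 ≤ gZ ^ 2 := by positivity
  have q0 : -2 ≤ gZ ∧ gZ ≤ 2 := by constructor <;> nlinarith
  have q1 : -2 ≤ a1 ∧ a1 ≤ 2 := by constructor <;> nlinarith
  have q2 : -2 ≤ b1 ∧ b1 ≤ 2 := by constructor <;> nlinarith
  obtain ⟨q01, q02⟩ := q0
  obtain ⟨q11, q12⟩ := q1
  obtain ⟨q21, q22⟩ := q2
  have ea : a2 = 3 - gZ - a1 := by linarith
  have eb : b2 = 3 - gZ - b1 := by linarith
  subst ea eb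
  interval_cases gZ <;> interval_cases a1 <;> interval_cases b1 <;> first | omega | (norm_num at h)

/-- from the equation `Σ α² c / d = 0`: both values of `γ` vanish or none -/
theorem both_zero {εZ εA εB gZ gA gB dZ dA dB : ℤ} (hZ : εZ = 1 ∨ εZ = -1) (hA : εA = 1 ∨ εA = -1) (hB : εB = 1 ∨ εB = -1)
    (hdZ : 0 < dZ) (hdA : 0 < dA) (hdB : 0 < dB) (h1 : dZ * εZ + dA * εA + dB * εB = 0)
    (h2 : gZ * εZ + gA * εA + gB * εB = -3)
    (h3 : ((gZ + 3 * εZ : ℤ) : ℚ) ^ 2 / (dZ : ℚ) * (εZ : ℚ) + ((gA : ℤ) : ℚ) ^ 2 / (dA : ℚ) * (εA : ℚ) +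
      ((gB : ℤ) : ℚ) ^ 2 / (dB : ℚ) * (εB : ℚ) = 0) :
    (-(gA * εA)) * (dB * εB) = (-(gB * εB)) * (dA * εA) := by
  have eZ : (εZ : ℚ) ^ 2 = 1 := by rcases hZ with h | h <;> rw [h] <;> norm_num
  have eA : (εA : ℚ) ^ 2 = 1 := by rcases hA with h | h <;> rw [h] <;> norm_num
  have eB : (εB : ℚ) ^ 2 = 1 := by rcases hB with h | h <;> rw [h] <;> norm_num
  apply prop_key (DZ := dZ * εZ) (gZ := -(gZ * εZ)) (D1 := dA * εA) (D2 := dB * εB)
  · exact h1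
  · linarith
  · have k1 : (dZ : ℚ) ≠ 0 := by exact_mod_cast hdZ.ne'
    have k2 : (dA : ℚ) ≠ 0 := by exact_mod_cast hdA.ne'
    have k3 : (dB : ℚ) ≠ 0 := by exact_mod_cast hdB.ne'
    have h4 : (((3 - -(gZ * εZ)) ^ 2 * (dA * εA) * (dB * εB) + (-(gA * εA)) ^ 2 * (dZ * εZ) * (dB * εB) +
        (-(gB * εB)) ^ 2 * (dZ * εZ) * (dA * εA) : ℤ) : ℚ) = 0 := by
      push_cast at h3 ⊢
      field_simp at h3
      rcases hZ with h | h <;> rcases hA with h' | h' <;> rcases hB with h'' | h'' <;> subst h h' h'' <;>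
        push_cast at h3 ⊢ <;> first | linear_combination h3 | linear_combination -h3
    exact_mod_cast h4

end Cfsg.Agent.H31.K9
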